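import Mathlib
import Cfsg.Prelude.Def_Classification2
import Cfsg.Agent.H13.Co3.Def

/-!
# S1920: the rows of case B and their assembly (helper527)

`Row F`: no finite simple group with the property `F` has a configuration `CB` (`H13/Co3/Def.lean`).
`RowsB`: all rows.  `RowsB.false`: a known non-abelian finite simple group has no configuration `CB`.
-/

set_option autoImplicit false

open Subgroup Cfsg

namespace Cfsg.Agent.H527.Co3

universe u

open Cfsg.Agent.H13.Co3 (CB)

/-- **A row of case B**: no finite simple group `G` with `F G` has a configuration `CB`. -/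
def Row (F : ∀ (G : Type u) [Group G], Prop) : Prop :=
  ∀ (G : Type u) [Group G] [Finite G] [IsSimpleGroup G], F G →
    ∀ (P N0 : Subgroup G) (z s : G) (ψ : ↥(normalizer (P : Set G)) →* Equiv.Perm (Fin 6)),
      CB P N0 z s ψ → False

/-- All rows of case B. -/
structure RowsB : Prop where
  alt : Row.{u} @IsAlternating
  psl : Row.{u} @IsPSL
  psp : Row.{u} @IsPSp
  psu : Row.{u} @IsPSU
  pomegaOdd : Row.{u} @IsPOmegaOdd
  pomegaPlus : Row.{u} @IsPOmegaPlus
  pomegaMinus : Row.{u} @IsPOmegaMinus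
  g2 : Row.{u} @Lie.IsoChevG2
  f4 : Row.{u} @Lie.IsoF4
  e6 : Row.{u} @Lie.IsoChevE6
  e7 : Row.{u} @Lie.IsoE7
  e8 : Row.{u} @Lie.IsoE8
  te6 : Row.{u} @Lie.Iso2E6
  td4 : Row.{u} @Lie.Iso3D4
  sz : Row.{u} @Lie.IsoSuzuki
  ree : Row.{u} @Lie.IsoRee
  tf4 : Row.{u} @Lie.Iso2F4
  tits : Row.{u} @Lie.IsoTits
  spor : Row.{u} @IsSporadicGroup

/-- An abelian group has no configuration `CB`. -/
theorem not_comm {G : Type u} [Group G] {P N0 : Subgroup G} {z s : G}
    {ψ : ↥(normalizer (P : Set G)) →* Equiv.Perm (Fin 6)} (C : CB P N0 z s ψ)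
    (h : ∀ a b : G, a * b = b * a) : False := by
  obtain ⟨x, hx⟩ := C.surj (Equiv.swap 0 1)
  obtain ⟨y, hy⟩ := C.surj (Equiv.swap 1 2)
  have h1 : x * y = y * x := Subtype.ext (h _ _)
  have h2 : ψ x * ψ y = ψ y * ψ x := by rw [← map_mul, h1, map_mul]
  rw [hx, hy] at h2
  exact absurd h2 (by decide)

/-- **No known finite simple group has a configuration `CB`**, from the rows. -/
theorem RowsB.false (R : RowsB.{u}) {G : Type u} [Group G] [Finite G] [IsSimpleGroup G]
    (hG : IsKnownSimple' G) {P N0 : Subgroup G} {z s : G}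
    {ψ : ↥(normalizer (P : Set G)) →* Equiv.Perm (Fin 6)} (C : CB P N0 z s ψ) : False := by
  rcases hG with h | h | h | h | h | h | h | h | h | h
  · have hc : IsCyclic G := isCyclic_of_prime_card (p := Nat.card G) (hp := ⟨h⟩) rfl
    exact not_comm C fun a b => hc.commGroup.mul_comm a b
  · exact R.alt G h _ _ _ _ _ C
  · exact R.psl G h _ _ _ _ _ C
  · exact R.psp G h _ _ _ _ _ C
  · exact R.psu G h _ _ _ _ _ C
  · exact R.pomegaOdd G h _ _ _ _ _ C
  · exact R.pomegaPlus G h _ _ _ _ _ C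
  · exact R.pomegaMinus G h _ _ _ _ _ C
  · rcases h with h | h | h | h | h | h | h | h | h | h | h
    · exact R.g2 G h _ _ _ _ _ C
    · exact R.f4 G h _ _ _ _ _ C
    · exact R.e6 G h _ _ _ _ _ C
    · exact R.e7 G h _ _ _ _ _ C
    · exact R.e8 G h _ _ _ _ _ C
    · exact R.te6 G h _ _ _ _ _ C
    · exact R.td4 G h _ _ _ _ _ C
    · exact R.sz G h _ _ _ _ _ C
    · exact R.ree G h _ _ _ _ _ C
    · exact R.tf4 G h _ _ _ _ _ C
    · exact R.tits G h _ _ _ _ _ C
  · exact R.spor G h _ _ _ _ _ C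

end Cfsg.Agent.H527.Co3
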